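-- Team project JR (S3206, coordinator helper35): package [NL] (helper41).
import Mathlib
import Cfsg.Agent.Lib.Helper35.JR.Defs

set_option autoImplicit false

namespace Cfsg.Agent.Lib.Helper41.JR

open Cfsg.Agent.Lib.Helper35.JR

universe u v

/-- In a group, the closure of the set of squares is a normal subgroup. -/
theorem closure_squares_normal (N : Type u) [Group N] :
    (Subgroup.closure {y : N | ∃ x : N, x ^ 2 = y}).Normal := by
  have h : Subgroup.closure {y : N | ∃ x : N, x ^ 2 = y} =
      Subgroup.normalClosure {y : N | ∃ x : N, x ^ 2 = y} := by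
    unfold Subgroup.normalClosure
    congr 1
    ext a
    constructor
    · intro ha
      exact Group.subset_conjugatesOfSet ha
    · intro ha
      rw [Group.mem_conjugatesOfSet_iff] at ha
      obtain ⟨b, ⟨x, hx⟩, hb⟩ := ha
      rw [isConj_iff] at hb
      obtain ⟨c, hc⟩ := hb
      refine ⟨c * x * c⁻¹, ?_⟩
      rw [conj_pow, hx, hc]
  rw [h]
  exact Subgroup.normalClosure_normal

/-- **[NL]** transport to an abstract group `N ≅ PSL₂(F)`, simplicity, generation by squares. -/
theorem pkgNL : PkgPSL.{v} → PkgNL.{u, v} := by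
  intro hPSL N _ _ F _ _ hodd h3 hne hab
  obtain ⟨e⟩ := hne
  haveI : Finite (Matrix.ProjectiveSpecialLinearGroup (Fin 2) F) := Finite.of_equiv N e.toEquiv
  have hes : Function.Surjective (e.toMonoidHom : N →* Matrix.ProjectiveSpecialLinearGroup (Fin 2) F) :=
    e.surjective
  have hess : Function.Surjective
      (e.symm.toMonoidHom : Matrix.ProjectiveSpecialLinearGroup (Fin 2) F →* N) := e.symm.surjective
  -- Sylow subgroups of `PSL₂(F)` are abelian
  have habQ : ∀ P : Sylow 2 (Matrix.ProjectiveSpecialLinearGroup (Fin 2) F),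
      ∀ x ∈ (P : Subgroup (Matrix.ProjectiveSpecialLinearGroup (Fin 2) F)),
      ∀ y ∈ (P : Subgroup (Matrix.ProjectiveSpecialLinearGroup (Fin 2) F)), x * y = y * x := by
    intro P x hx y hy
    have h1 : e.symm x ∈ ((P.mapSurjective hess : Sylow 2 N) : Subgroup N) := by
      rw [Sylow.coe_mapSurjective]
      exact Subgroup.mem_map_of_mem e.symm.toMonoidHom hx
    have h2 : e.symm y ∈ ((P.mapSurjective hess : Sylow 2 N) : Subgroup N) := by
      rw [Sylow.coe_mapSurjective]
      exact Subgroup.mem_map_of_mem e.symm.toMonoidHom hy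
    have h3' := hab (P.mapSurjective hess) _ h1 _ h2
    have h4 := congrArg e h3'
    simpa using h4
  obtain ⟨hsyl, haut⟩ := hPSL F hodd h3 habQ
  -- Sylow facts in `N`
  have hsylN : ∀ P : Sylow 2 N, Nat.card ↥(P : Subgroup N) = 4 ∧
      ∀ x ∈ (P : Subgroup N), x ^ 2 = 1 := by
    intro P
    obtain ⟨hc, hx2⟩ := hsyl (P.mapSurjective hes)
    constructor
    · rw [← hc, Sylow.coe_mapSurjective]
      exact Nat.card_congr
        ((P : Subgroup N).equivMapOfInjective e.toMonoidHom e.injective).toEquiv
    · intro x hx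
      have h1 : e x ∈ ((P.mapSurjective hes : Sylow 2 _) :
          Subgroup (Matrix.ProjectiveSpecialLinearGroup (Fin 2) F)) := by
        rw [Sylow.coe_mapSurjective]
        exact Subgroup.mem_map_of_mem e.toMonoidHom hx
      have h2 := hx2 _ h1
      apply e.injective
      rw [map_pow, h2, map_one]
  -- simplicity
  haveI hQs : IsSimpleGroup (Matrix.ProjectiveSpecialLinearGroup (Fin 2) F) :=
    Matrix.ProjectiveSpecialLinearGroup.rank_two_simple
      (by rw [Nat.card_eq_fintype_card]; omega)
  haveI : Nontrivial N := e.toEquiv.nontrivial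
  haveI hNs : IsSimpleGroup N :=
    IsSimpleGroup.isSimpleGroup_of_surjective e.symm.toMonoidHom hess
  refine ⟨hNs, ?_, hsylN, ?_⟩
  · -- squares
    haveI := closure_squares_normal N
    rcases Subgroup.Normal.eq_bot_or_eq_top
      (H := Subgroup.closure {y : N | ∃ x : N, x ^ 2 = y}) inferInstance with hbot | htop
    · exfalso
      have hsq : ∀ x : N, x ^ 2 = 1 := by
        intro x
        have h1 : x ^ 2 ∈ Subgroup.closure {y : N | ∃ x : N, x ^ 2 = y} :=
          Subgroup.subset_closure ⟨x, rfl⟩
        rw [hbot] at h1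
        exact Subgroup.mem_bot.mp h1
      have hinv : ∀ x : N, x⁻¹ = x := by
        intro x
        have h1 := hsq x
        rw [pow_two] at h1
        exact inv_eq_of_mul_eq_one_left h1
      have hcomm : ∀ x y : N, x * y = y * x := by
        intro x y
        have h1 := hinv (y * x)
        rw [mul_inv_rev, hinv x, hinv y] at h1
        exact h1
      obtain ⟨P⟩ : Nonempty (Sylow 2 N) := inferInstance
      obtain ⟨hc, -⟩ := hsylN P
      have hPnt : ∃ x ∈ (P : Subgroup N), x ≠ 1 := by
        by_contra hcon
        have h1 : (P : Subgroup N) = ⊥ := by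
          rw [Subgroup.eq_bot_iff_forall]
          intro x hx
          by_contra hx1
          exact hcon ⟨x, hx, hx1⟩
        rw [h1] at hc
        simp at hc
      obtain ⟨x, -, hx1⟩ := hPnt
      haveI hzn : (Subgroup.zpowers x).Normal := by
        constructor
        intro n hn g
        have h1 : g * n * g⁻¹ = n := by rw [hcomm g n, mul_assoc, mul_inv_cancel, mul_one]
        rw [h1]; exact hn
      rcases Subgroup.Normal.eq_bot_or_eq_top (H := Subgroup.zpowers x) hzn with hb | ht
      · apply hx1
        have h1 : x ∈ Subgroup.zpowers x := Subgroup.mem_zpowers x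
        rw [hb] at h1
        exact Subgroup.mem_bot.mp h1
      · have h1 : Nat.card (Subgroup.zpowers x) = orderOf x := Nat.card_zpowers x
        have h2 : orderOf x ≤ 2 := Nat.le_of_dvd (by norm_num) (orderOf_dvd_of_pow_eq_one (hsq x))
        have h3' : Nat.card ↥(P : Subgroup N) ≤ Nat.card N := Subgroup.card_le_card_group _
        have h4 : Nat.card N = Nat.card (Subgroup.zpowers x) := by
          rw [ht, Subgroup.card_top]
        omega
    · exact htop
  · -- automorphisms
    intro α k hα P hfix
    have hα' : (MulAut.congr e α) ^ (2 ^ k) = 1 := by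
      rw [← map_pow]
      have h1 : α ^ (2 ^ k) = (1 : MulAut N) := hα
      rw [h1, map_one]
    have hfix' : ∀ x ∈ ((P.mapSurjective hes : Sylow 2 _) :
        Subgroup (Matrix.ProjectiveSpecialLinearGroup (Fin 2) F)), (MulAut.congr e α) x = x := by
      intro x hx
      rw [Sylow.coe_mapSurjective] at hx
      obtain ⟨y, hy, rfl⟩ := hx
      show e (α (e.symm (e y))) = e y
      rw [MulEquiv.symm_apply_apply, hfix y hy]
    obtain ⟨v', hv', hconj⟩ := haut (MulAut.congr e α) k hα' (P.mapSurjective hes) hfix'
    rw [Sylow.coe_mapSurjective] at hv'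
    obtain ⟨v, hv, rfl⟩ := hv'
    refine ⟨v, hv, ?_⟩
    intro x
    have h1 := hconj (e x)
    have h2 : (MulAut.congr e α) (e x) = e (α x) := by
      show e (α (e.symm (e x))) = e (α x)
      rw [MulEquiv.symm_apply_apply]
    rw [h2] at h1
    apply e.injective
    rw [h1]
    simp

end Cfsg.Agent.Lib.Helper41.JR
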